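import Mathlib
import Cfsg.Agent.H960.KGV.Defs
import Cfsg.Agent.S0799
import Cfsg.Agent.ClassicalGeometry.PSL2Solvable
import Cfsg.Agent.UGT.A7.Five
import Cfsg.Agent.H76.PermFour

/-!
# Degree 2 (helper491, task 2018 of helper960, TEAM KGV)

* `dim2` : a simple group with a `p'`-projective representation of degree 2 over a field of characteristic `p` is `A₅`;
* `pgl2` : a `p'`-group `X` in `PGL₂` with a normal subgroup `A₅`, `C_X(A₅) = 1`, is `A₅`.
-/

set_option autoImplicit false

namespace Cfsg.Agent.H491.KGV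

open Matrix Subgroup Cfsg.Agent.H960.KGV

/-! ### `p` divides the order of `PSL₂` and `PGL₂` -/

theorem upper_pow {K : Type*} [Field K] (a : K) (n : ℕ) :
    (!![1, a; 0, 1] : Matrix (Fin 2) (Fin 2) K) ^ n = !![1, n * a; 0, 1] := by
  induction n with
  | zero =>
    rw [pow_zero]
    ext i j
    fin_cases i <;> fin_cases j <;> simp
  | succ n ih =>
    rw [pow_succ, ih]
    ext i j
    fin_cases i <;> fin_cases j <;> simp [Matrix.mul_apply, Fin.sum_univ_two]
    ring

theorem dvd_card_psl {K : Type*} [Field K] [Finite K] {p : ℕ} [hp : Fact p.Prime] [CharP K p] :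
    p ∣ Nat.card (ProjectiveSpecialLinearGroup (Fin 2) K) := by
  let u : SpecialLinearGroup (Fin 2) K := ⟨!![1, 1; 0, 1], by simp⟩
  let x : ProjectiveSpecialLinearGroup (Fin 2) K := QuotientGroup.mk u
  have hx1 : x ≠ 1 := by
    intro h
    have h1 : u ∈ center (SpecialLinearGroup (Fin 2) K) := (QuotientGroup.eq_one_iff u).1 h
    obtain ⟨c, -, hc⟩ := Matrix.SpecialLinearGroup.mem_center_iff.1 h1
    have h2 := congrFun (congrFun hc 0) 1
    simp [u] at h2
  have hxp : x ^ p = 1 := by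
    have h1 : u ^ p = 1 := by
      refine Subtype.ext ((Matrix.SpecialLinearGroup.coe_pow u p).trans ?_)
      show (!![1, 1; 0, 1] : Matrix (Fin 2) (Fin 2) K) ^ p = 1
      rw [upper_pow, CharP.cast_eq_zero K p, zero_mul]
      ext i j
      fin_cases i <;> fin_cases j <;> simp
    show (QuotientGroup.mk u : ProjectiveSpecialLinearGroup (Fin 2) K) ^ p = 1
    rw [← QuotientGroup.mk_pow, h1]
    rfl
  have h1 : orderOf x = p := orderOf_eq_prime hxp hx1
  rw [← h1]
  exact orderOf_dvd_natCard x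

theorem dvd_card_pgl {K : Type*} [Field K] [Finite K] {p : ℕ} [hp : Fact p.Prime] [CharP K p] :
    p ∣ Nat.card (ProjGenLinGroup (Fin 2) K) := by
  have hfin : Finite (ProjGenLinGroup (Fin 2) K) :=
    Finite.of_surjective _ Matrix.ProjGenLinGroup.mk_surjective
  exact (dvd_card_psl (K := K)).trans (Subgroup.card_dvd_of_injective _
    (Matrix.ProjectiveSpecialLinearGroup.toPGL_injective (n := Fin 2) (R := K)))

/-- **perfect `p'`-subgroups of `PSL₂`** -/
theorem alt_five_of_psl {F : Type} [Field F] [Finite F] {p : ℕ} [hp : Fact p.Prime] [CharP F p]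
    (H : Subgroup (ProjectiveSpecialLinearGroup (Fin 2) F)) (hH : ¬ Group.IsSolvable H) (hpH : ¬ p ∣ Nat.card H) :
    Nonempty (H ≃* alternatingGroup (Fin 5)) := by
  have : Fintype F := Fintype.ofFinite F
  have hS4 := Cfsg.Agent.H76.PermFour.solvable_perm_four
  rcases Cfsg.Agent.S0799.result (F := F) rfl p H with ⟨k, -, h | ⟨⟨e⟩⟩⟩ | ⟨P, K, hK, ⟨e⟩⟩ | ⟨⟨e⟩⟩ | ⟨⟨e⟩⟩ | h |
    ⟨K, _, _, m, hm, he⟩
  · exfalso
    have := h.1
    exact hH (by
      let _ := this.commGroup
      exact inferInstance)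
  · exfalso
    have := ClassicalGeometry.PSL2Solvable.isSolvable_dihedral k
    exact hH (Group.isSolvable_of_surjective e.symm.surjective (f := e.symm.toMonoidHom))
  · exfalso
    have := ClassicalGeometry.PSL2Solvable.isSolvable_of_le_normalizer p P K hK
    exact hH (Group.isSolvable_of_surjective e.symm.surjective (f := e.symm.toMonoidHom))
  · exfalso
    have : Group.IsSolvable ↥(alternatingGroup (Fin 4)) := inferInstance
    exact hH (Group.isSolvable_of_surjective e.symm.surjective (f := e.symm.toMonoidHom))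
  · exfalso
    exact hH (Group.isSolvable_of_surjective e.symm.surjective (f := e.symm.toMonoidHom))
  · exact h
  · exfalso
    -- the characteristic of `K` is `p`
    have hK : CharP K p := by
      obtain ⟨r, hr⟩ := CharP.exists K
      have hrp : r.Prime := CharP.char_is_prime K r
      obtain ⟨n, -, hn⟩ := FiniteField.card K r
      obtain ⟨l, -, hl⟩ := FiniteField.card F p
      rw [hn, hl, ← pow_mul] at hm
      have h1 : p ∣ r ^ ((n : ℕ) * m) := by
        rw [hm]
        exact dvd_pow_self p l.2.ne'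
      have h2 := (Nat.prime_dvd_prime_iff_eq hp.out hrp).1 (hp.out.dvd_of_dvd_pow h1)
      rw [h2]
      exact hr
    rcases he with ⟨⟨e⟩⟩ | ⟨⟨e⟩⟩
    · exact hpH (by rw [Nat.card_congr e.toEquiv]; exact dvd_card_psl)
    · exact hpH (by rw [Nat.card_congr e.toEquiv]; exact dvd_card_pgl)

/-- **degree 2: only `A₅`** -/
theorem dim2 {p f : ℕ} (hp : p.Prime) {T : Type} [Group T] [Finite T] [IsSimpleGroup T]
    (hT : ¬ IsMulCommutative T) (h : HasRep T p f 2) : Nonempty (T ≃* alternatingGroup (Fin 5)) := by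
  obtain ⟨E, _, _, F, _, _, ρ, hE, ⟨e⟩, hpE, hF, hρ, -, habs⟩ := h
  have hpF : Fact p.Prime := ⟨hp⟩
  -- the characteristic
  have hchar : CharP F p := by
    have : Fintype F := Fintype.ofFinite F
    obtain ⟨r, hr⟩ := CharP.exists F
    have hrp : r.Prime := CharP.char_is_prime F r
    obtain ⟨n, -, hn⟩ := FiniteField.card F r
    rw [Nat.card_eq_fintype_card, hn] at hF
    have h1 : r ∣ p ^ f := by
      rw [← hF]
      exact dvd_pow_self r n.2.ne'
    have h2 := (Nat.prime_dvd_prime_iff_eq hrp hp).1 (hrp.dvd_of_dvd_pow h1)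
    rw [← h2]
    exact hr
  -- the determinant is trivial
  have hdet : ∀ g : E, ((ρ g : GL (Fin 2) F) : Matrix (Fin 2) (Fin 2) F).det = 1 := by
    intro g
    have h1 : commutator E ≤ ((Matrix.GeneralLinearGroup.det : GL (Fin 2) F →* Fˣ).comp ρ).ker :=
      Abelianization.commutator_subset_ker _
    rw [hE] at h1
    have h2 := MonoidHom.mem_ker.1 (h1 (mem_top g))
    have h3 := congrArg Units.val h2
    exact h3
  let ρ' : E →* SpecialLinearGroup (Fin 2) F :=
    { toFun := fun g => ⟨((ρ g : GL (Fin 2) F) : Matrix (Fin 2) (Fin 2) F), hdet g⟩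
      map_one' := by
        apply Subtype.ext
        show ((ρ 1 : GL (Fin 2) F) : Matrix (Fin 2) (Fin 2) F) = 1
        rw [map_one]; rfl
      map_mul' := fun a b => by
        apply Subtype.ext
        show ((ρ (a * b) : GL (Fin 2) F) : Matrix (Fin 2) (Fin 2) F) = _ * _
        rw [map_mul]; rfl }
  let φ : E →* ProjectiveSpecialLinearGroup (Fin 2) F :=
    (QuotientGroup.mk' (center (SpecialLinearGroup (Fin 2) F))).comp ρ'
  have hker : φ.ker = center E := by
    ext z
    rw [MonoidHom.mem_ker]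
    constructor
    · intro h1
      have h2 : ρ' z ∈ center (SpecialLinearGroup (Fin 2) F) := (QuotientGroup.eq_one_iff _).1 h1
      rw [mem_center_iff]
      intro g
      apply hρ
      apply Units.ext
      rw [map_mul, map_mul]
      have h3 := congrArg Subtype.val (mem_center_iff.1 h2 (ρ' g))
      exact h3
    · intro h1
      apply (QuotientGroup.eq_one_iff _).2
      rw [mem_center_iff] at h1
      obtain ⟨c, hc⟩ := habs ((ρ z : GL (Fin 2) F) : Matrix (Fin 2) (Fin 2) F) (fun g => by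
        have h2 := congrArg ρ (h1 g)
        rw [map_mul, map_mul] at h2
        exact (congrArg Units.val h2).symm)
      rw [mem_center_iff]
      intro g
      apply Subtype.ext
      show (g : Matrix (Fin 2) (Fin 2) F) * ((ρ z : GL (Fin 2) F) : Matrix (Fin 2) (Fin 2) F) =
        ((ρ z : GL (Fin 2) F) : Matrix (Fin 2) (Fin 2) F) * g
      rw [hc, Matrix.mul_smul, Matrix.smul_mul, mul_one, one_mul]
  let e1 : T ≃* φ.range := e.symm.trans
    ((QuotientGroup.quotientMulEquivOfEq hker.symm).trans (QuotientGroup.quotientKerEquivRange φ))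
  have hTs : ¬ Group.IsSolvable T := by
    intro hs
    exact hT ⟨⟨IsSimpleGroup.comm_iff_isSolvable.2 hs⟩⟩
  obtain ⟨e2⟩ := alt_five_of_psl (p := p) φ.range (fun hs => hTs
    (Group.isSolvable_of_surjective e1.symm.surjective (f := e1.symm.toMonoidHom))) (fun hd => hpE (hd.trans
      (Subgroup.card_range_dvd φ)))
  exact ⟨e1.trans e2⟩

/-! ### `S₅` is not in `PGL₂` -/

/-- the fifth power of a `2 × 2` matrix -/
theorem pow_five {F : Type*} [Field F] (M : Matrix (Fin 2) (Fin 2) F) :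
    M ^ 5 = (M.trace ^ 4 - 3 * M.trace ^ 2 * M.det + M.det ^ 2) • M -
      (M.trace ^ 3 * M.det - 2 * M.trace * M.det ^ 2) • (1 : Matrix (Fin 2) (Fin 2) F) := by
  have h2 : M * M = M.trace • M - M.det • (1 : Matrix (Fin 2) (Fin 2) F) := by
    ext i j
    fin_cases i <;> fin_cases j <;>
      simp [Matrix.mul_apply, Fin.sum_univ_two, Matrix.trace_fin_two, Matrix.det_fin_two] <;> ring
  have h4 : M ^ 5 = (M * M) * (M * M) * M := by
    rw [pow_succ, pow_succ, pow_succ, pow_succ, pow_one]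
    simp only [mul_assoc]
  rw [h4, h2]
  generalize M.trace = t at h2 ⊢
  generalize M.det = D at h2 ⊢
  simp only [sub_mul, mul_sub, Matrix.smul_mul, Matrix.mul_smul, one_mul, mul_one, smul_smul, h2, smul_sub]
  module

theorem trace_sq {F : Type*} [Field F] (M : Matrix (Fin 2) (Fin 2) F) :
    (M * M).trace = M.trace ^ 2 - 2 * M.det := by
  simp [Matrix.mul_apply, Fin.sum_univ_two, Matrix.trace_fin_two, Matrix.det_fin_two]
  ring

/-- an element of order `5` of `PGL₂` is not conjugate to its square -/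
theorem no_conj_sq {F : Type*} [Field F] (h5 : (5 : F) ≠ 0) (y g : GL (Fin 2) F) {c d : F}
    (hy : ∀ b : F, (y : Matrix (Fin 2) (Fin 2) F) ≠ b • 1)
    (hy5 : ((y ^ 5 : GL (Fin 2) F) : Matrix (Fin 2) (Fin 2) F) = d • 1)
    (hg : ((g * y * g⁻¹ * (y ^ 2)⁻¹ : GL (Fin 2) F) : Matrix (Fin 2) (Fin 2) F) = c • 1) : False := by
  set M : Matrix (Fin 2) (Fin 2) F := (y : Matrix (Fin 2) (Fin 2) F) with hM
  have hD : M.det ≠ 0 := by
    intro h
    have h1 : (Matrix.GeneralLinearGroup.det y : F) = 0 := h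
    exact (Matrix.GeneralLinearGroup.det y).ne_zero h1
  have h5' : M.trace ^ 4 - 3 * M.trace ^ 2 * M.det + M.det ^ 2 = 0 := by
    by_contra hne
    have h1 : M ^ 5 = d • (1 : Matrix (Fin 2) (Fin 2) F) := by
      rw [← hy5]; rfl
    rw [pow_five] at h1
    have h2 : (M.trace ^ 4 - 3 * M.trace ^ 2 * M.det + M.det ^ 2) • M =
        (d + (M.trace ^ 3 * M.det - 2 * M.trace * M.det ^ 2)) • (1 : Matrix (Fin 2) (Fin 2) F) := by
      rw [add_smul d, ← h1, sub_add_cancel]
    apply hy ((M.trace ^ 4 - 3 * M.trace ^ 2 * M.det + M.det ^ 2)⁻¹ *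
      (d + (M.trace ^ 3 * M.det - 2 * M.trace * M.det ^ 2)))
    rw [← smul_smul, ← h2, smul_smul, inv_mul_cancel₀ hne, one_smul]
  -- `g y g⁻¹ = c y ^ 2`
  have hc : ((g * y * g⁻¹ : GL (Fin 2) F) : Matrix (Fin 2) (Fin 2) F) = c • (M * M) := by
    have h1 : (g * y * g⁻¹ : GL (Fin 2) F) = (g * y * g⁻¹ * (y ^ 2)⁻¹) * y ^ 2 := by group
    rw [h1, Units.val_mul, hg, Matrix.smul_mul, one_mul, pow_two]
    rfl
  have htr : M.trace = c * (M.trace ^ 2 - 2 * M.det) := by
    have h1 := congrArg Matrix.trace hc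
    rw [Matrix.trace_smul, trace_sq, smul_eq_mul] at h1
    rw [← h1, Units.val_mul, Units.val_mul, Matrix.trace_mul_comm, ← Matrix.mul_assoc]
    have h2 : (↑g⁻¹ : Matrix (Fin 2) (Fin 2) F) * (g : Matrix (Fin 2) (Fin 2) F) = 1 := by
      rw [← Units.val_mul, inv_mul_cancel]; rfl
    rw [h2, one_mul]
  have hdet : M.det = c ^ 2 * (M.det * M.det) := by
    have h1 := congrArg Matrix.det hc
    rw [Matrix.det_smul, Matrix.det_mul, Fintype.card_fin] at h1
    have h2 : (g : Matrix (Fin 2) (Fin 2) F) * (↑g⁻¹ : Matrix (Fin 2) (Fin 2) F) = 1 := by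
      rw [← Units.val_mul, mul_inv_cancel]; rfl
    have h3 := congrArg Matrix.det h2
    rw [Matrix.det_mul, Matrix.det_one] at h3
    rw [← h1, Units.val_mul, Units.val_mul, Matrix.det_mul, Matrix.det_mul]
    linear_combination -M.det * h3
  generalize M.trace = t at *
  generalize M.det = D at *
  have h1 : c ^ 2 * D = 1 := by
    apply mul_left_cancel₀ hD
    linear_combination -hdet
  have h2 : D * t ^ 2 = (t ^ 2 - 2 * D) ^ 2 := by
    have h3 : t ^ 2 = c ^ 2 * (t ^ 2 - 2 * D) ^ 2 := by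
      rw [← mul_pow, ← htr]
    calc D * t ^ 2 = D * (c ^ 2 * (t ^ 2 - 2 * D) ^ 2) := by rw [← h3]
      _ = (c ^ 2 * D) * (t ^ 2 - 2 * D) ^ 2 := by ring
      _ = _ := by rw [h1, one_mul]
  have h3 : (t ^ 2 - D) * (t ^ 2 - 4 * D) = 0 := by linear_combination -h2
  rcases mul_eq_zero.1 h3 with h4 | h4
  · have h6 : t ^ 2 = D := by linear_combination h4
    have h7 : D ^ 2 = 0 := by
      have h8 : t ^ 4 = D ^ 2 := by rw [← h6]; ring
      rw [h8, h6] at h5'
      linear_combination -h5'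
    exact hD (pow_eq_zero_iff (two_ne_zero) |>.1 h7)
  · have h6 : t ^ 2 = 4 * D := by linear_combination h4
    have h7 : 5 * D ^ 2 = 0 := by
      have h8 : t ^ 4 = 16 * D ^ 2 := by
        have : t ^ 4 = (t ^ 2) ^ 2 := by ring
        rw [this, h6]; ring
      rw [h8, h6] at h5'
      linear_combination h5'
    rcases mul_eq_zero.1 h7 with h8 | h8
    · exact h5 h8
    · exact hD (pow_eq_zero_iff (two_ne_zero) |>.1 h8)

open Equiv Cfsg.Agent.UGT.A7.Dg in
/-- if `N ≅ A₅` is normal in `X`, `C_X(N) = 1` and `N ≠ X` then some element of order `5` of `N` is conjugate to its square -/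
theorem exists_conj_sq {X : Type*} [Group X] [Finite X] (N : Subgroup X) [hN : N.Normal]
    (e : N ≃* alternatingGroup (Fin 5)) (hC : Subgroup.centralizer (N : Set X) = ⊥) (hne : N ≠ ⊤) :
    ∃ n x : X, n ^ 5 = 1 ∧ n ≠ 1 ∧ x * n * x⁻¹ = n ^ 2 := by
  obtain ⟨ψ, hψ⟩ := exists_autHom5
  let Φ : X →* P5 := ψ.comp ((MulAut.congr e).toMonoidHom.comp (MulAut.conjNormal (H := N)))
  have hΦ : ∀ (x : X) (n : N), ((e ⟨x * n * x⁻¹, hN.conj_mem _ n.2 x⟩ : alternatingGroup (Fin 5)) : P5) =
      Φ x * e n * (Φ x)⁻¹ := by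
    intro x n
    have h1 : e ⟨x * n * x⁻¹, hN.conj_mem _ n.2 x⟩ = (MulAut.congr e (MulAut.conjNormal x)) (e n) := by
      show e _ = e (MulAut.conjNormal x (e.symm (e n)))
      rw [e.symm_apply_apply]
      congr 1
    rw [h1]
    exact hψ _ _
  have hinj : Function.Injective Φ := by
    rw [injective_iff_map_eq_one]
    intro x hx
    have h1 : x ∈ Subgroup.centralizer (N : Set X) := by
      rw [mem_centralizer_iff]
      intro n hn
      have h2 := hΦ x ⟨n, hn⟩
      rw [hx, one_mul, inv_one, mul_one] at h2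
      have h3 := congrArg Subtype.val (e.injective (Subtype.ext h2))
      have h4 : x * n * x⁻¹ = n := h3
      rw [mul_inv_eq_iff_eq_mul] at h4
      exact h4.symm
    rwa [hC, mem_bot] at h1
  have hNc : Nat.card N = 60 := by
    rw [Nat.card_congr e.toEquiv, Nat.card_eq_fintype_card]
    decide
  have hsurj : Function.Surjective Φ := by
    refine (hinj.bijective_of_nat_card_le ?_).2
    have h1 : Nat.card P5 = 120 := by
      rw [Nat.card_eq_fintype_card, Fintype.card_perm, Fintype.card_fin]; rfl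
    rw [h1]
    have h2 := N.card_mul_index
    rw [hNc] at h2
    have h3 : N.index ≠ 1 := fun h => hne (Subgroup.index_eq_one.1 h)
    have h4 : N.index ≠ 0 := Subgroup.index_ne_zero_of_finite
    omega
  -- the 5-cycle
  let u : alternatingGroup (Fin 5) := ⟨finRotate 5, by
    rw [Equiv.Perm.mem_alternatingGroup]; decide⟩
  let s : P5 := swap 1 2 * swap 2 4 * swap 4 3
  have hs : s * finRotate 5 * s⁻¹ = finRotate 5 ^ 2 := by decide
  obtain ⟨x, hx⟩ := hsurj s
  refine ⟨(e.symm u : N), x, ?_, ?_, ?_⟩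
  · have h1 : u ^ 5 = 1 := by
      apply Subtype.ext
      show finRotate 5 ^ 5 = 1
      decide
    rw [← Subgroup.coe_pow, ← map_pow, h1, map_one, Subgroup.coe_one]
  · intro h
    have h1 : e.symm u = 1 := Subtype.ext h
    have h2 : u = 1 := by rw [← e.apply_symm_apply u, h1, map_one]
    have h3 : finRotate 5 = 1 := congrArg Subtype.val h2
    revert h3
    decide
  · have h1 := hΦ x (e.symm u)
    rw [e.apply_symm_apply, hx] at h1
    have h2 : (⟨x * (e.symm u : N) * x⁻¹, hN.conj_mem _ (e.symm u).2 x⟩ : N) = (e.symm u) ^ 2 := by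
      apply e.injective
      apply Subtype.ext
      rw [h1, map_pow, e.apply_symm_apply]
      exact hs
    exact congrArg Subtype.val h2

/-- **`X` in `PGL₂` with a normal subgroup `A₅`** -/
theorem pgl2 {p : ℕ} [Fact p.Prime] {F : Type} [Field F] [Finite F] [CharP F p] {X : Type} [Group X] [Finite X]
    (hp : ¬ p ∣ Nat.card X) (N : Subgroup X) [N.Normal] (e : N ≃* alternatingGroup (Fin 5))
    (hC : Subgroup.centralizer (N : Set X) = ⊥) (Y : Subgroup (GL (Fin 2) F)) (φ : Y →* X)
    (hφ : Function.Surjective φ)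
    (hk : ∀ y ∈ φ.ker, ∃ c : F, ((y : GL (Fin 2) F) : Matrix (Fin 2) (Fin 2) F) = c • 1)
    (hk' : ∀ (y : Y) (c : F), ((y : GL (Fin 2) F) : Matrix (Fin 2) (Fin 2) F) = c • 1 → y ∈ φ.ker) : N = ⊤ := by
  by_contra hne
  obtain ⟨n, x, hn5, hn1, hx⟩ := exists_conj_sq N e hC hne
  obtain ⟨y, rfl⟩ := hφ n
  obtain ⟨g, rfl⟩ := hφ x
  have h5 : (5 : F) ≠ 0 := by
    have h1 : ((5 : ℕ) : F) ≠ 0 := by
      rw [Ne, CharP.cast_eq_zero_iff F p]
      intro h2
      have h3 : p = 5 := (Nat.prime_dvd_prime_iff_eq Fact.out (by norm_num)).1 h2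
      apply hp
      rw [h3]
      have hf5 : Fact (Nat.Prime 5) := ⟨by norm_num⟩
      have h4 : orderOf (φ y) = 5 := orderOf_eq_prime hn5 hn1
      rw [← h4]
      exact orderOf_dvd_natCard _
    exact_mod_cast h1
  obtain ⟨d, hd⟩ := hk (y ^ 5) (by rw [MonoidHom.mem_ker, map_pow, hn5])
  obtain ⟨c, hc⟩ := hk (g * y * g⁻¹ * (y ^ 2)⁻¹) (by
    rw [MonoidHom.mem_ker, map_mul, map_mul, map_mul, map_inv, map_inv, map_pow, hx, mul_inv_cancel])
  refine no_conj_sq h5 (y : GL (Fin 2) F) (g : GL (Fin 2) F) (c := c) (d := d) (fun b hb => ?_) ?_ ?_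
  · exact hn1 (MonoidHom.mem_ker.1 (hk' y b hb))
  · exact hd
  · exact hc

end Cfsg.Agent.H491.KGV
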